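import Groth.Agent.Sga4h.H616.TrLoc
import Groth.Agent.Sga4h.H927.CycInv
import Groth.Agent.Sga4h.H222.DetAlg
import Groth.Agent.Sga4h.H912.Twist
import Groth.Agent.Sga4B.ShriekTools

/-!
# Local factors of extensions by zero

`j : X ⟶ P` an open immersion over `k`:
* `locFactor_extZero`: `locFactor b (j x) (j_! L) = locFactor a x L`;
* `locFactor_extZero_of_not_mem`: the local factor of `j_! L` outside of `X` is one;
* `finprod_locFactor`: the products over the closed points of degree `≤ N`.
-/

set_option autoImplicit false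
universe u
open CategoryTheory CategoryTheory.Limits AlgebraicGeometry Opposite Polynomial
open scoped BigOperators

namespace Groth.Agent.Sga4h.H915.FacOpen

open Groth.Agent Groth.Agent.Sga4h.H912.Twist Groth.Agent.Sga4h.H927.HMod Groth.Agent.Sga4h.H616.TrLoc
  Groth.Agent.Sga4h.H927.FinStalk

section conj

variable {Λ : Type} [Field Λ] {k : Type u} [Field k] {K : Type u} [Field K] [Algebra k K]

theorem bij_charRev {V W : Type*} [AddCommGroup V] [Module Λ V] [AddCommGroup W] [Module Λ W]
    (e : V →ₗ[Λ] W) (he : Function.Bijective e) (φ : V →ₗ[Λ] V) (ψ : W →ₗ[Λ] W) (h : ∀ x, ψ (e x) = e (φ x)) :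
    FinFr.charRev ψ = FinFr.charRev φ :=
  H222.DetAlg.charRev_conj (LinearEquiv.ofBijective e he) φ ψ h

variable [Fact FinFr.PullExact.{u}]

/-- Isomorphic sheaves of `Λ`-modules have the same characteristic polynomials. -/
theorem charRev_galHM_congr {X₀ : Scheme.{u}} (a : X₀ ⟶ Spec (CommRingCat.of k)) (σ : K ≃ₐ[k] K)
    {L M : EtLam.Sheaf Λ X₀} (φ : L.carrier ⟶ M.carrier) [IsIso φ] (h : Equi L M φ) (n : ℕ) :
    FinFr.charRev (galHM a σ M n) = FinFr.charRev (galHM a σ L n) :=
  bij_charRev (mapHM (pullL (FinFr.extπ K a) φ) (h.pull _) n) (bijective_mapHM _ _ n) _ _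
    fun v => (galHM_mapHM a σ φ h n v)

variable {X₁ X₂ : Scheme.{u}} (a₁ : X₁ ⟶ Spec (CommRingCat.of k)) (a₂ : X₂ ⟶ Spec (CommRingCat.of k))
  (g : X₁ ⟶ X₂) (w : g ≫ a₂ = a₁) (σ : K ≃ₐ[k] K) (L : EtLam.Sheaf Λ X₂) (n : ℕ)

include w in
/-- Isomorphic `k`-schemes have the same characteristic polynomials. -/
theorem charRev_galHM_iso [IsIso g] :
    FinFr.charRev (galHM a₁ σ (EtLam.pullback g L) n) = FinFr.charRev (galHM a₂ σ L n) := by
  have := isIso_extHom (K := K) a₁ a₂ g w
  let E₁ := LinearEquiv.ofBijective (chgHM (FinFr.extπ K a₁) g (FinFr.extπ K a₁ ≫ g) rfl L n)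
    (bijective_chgHM _ _ _ _ L n)
  let E₂ := LinearEquiv.ofBijective (viaHM (FinFr.extHom (K := K) a₁ g w) (FinFr.extπ K a₂)
    (FinFr.extπ K a₁ ≫ g) (FinFr.extHom_fst a₁ g w) L n) (bijective_viaHM _ _ _ _ L n)
  refine H222.DetAlg.charRev_conj (E₂.trans E₁.symm) _ _ fun x => ?_
  apply E₁.injective
  rw [LinearEquiv.trans_apply, LinearEquiv.trans_apply, E₁.apply_symm_apply]
  exact galHM_iso_apply a₁ a₂ g w σ L n x _ (E₁.apply_symm_apply (E₂ x))

end conj

section frob

variable {Λ : Type} [Field Λ] {k : Type u} [Field k] [Fintype k] (K : Type u) [Field K] [Algebra k K]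
  [Algebra.IsAlgebraic k K] [Fact FinFr.PullExact.{u}]

theorem charRev_frobK_eq {P : Scheme.{u}} (b : P ⟶ Spec (CommRingCat.of k)) (M : EtLam.Sheaf Λ P) (i : ℕ) :
    FinFr.charRev (H925.Defs.frobK K b M i) =
      FinFr.charRev (galHM (K := K) b (FinFr.arith k K).symm M i) := rfl

variable {X P : Scheme.{u}} (a : X ⟶ Spec (CommRingCat.of k)) (j : X ⟶ P) [IsOpenImmersion j]
  (b : P ⟶ Spec (CommRingCat.of k)) (w : j ≫ b = a) (L : EtLam.Sheaf Λ X) (x : X)

/-- The isomorphism of the spectra of the residue fields. -/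
noncomputable def resMap : Spec (X.residueField x) ⟶ Spec (P.residueField (j x)) :=
  Spec.map (j.residueFieldMap x)

instance : IsIso (resMap j x) := by
  unfold resMap
  infer_instance

omit [Field k] [Fintype k] [Fact FinFr.PullExact.{u}] [IsOpenImmersion j] in
theorem resMap_comp : resMap j x ≫ P.fromSpecResidueField (j x) = X.fromSpecResidueField x ≫ j :=
  Scheme.Hom.SpecMap_residueFieldMap_fromSpecResidueField j x

include w in
/-- The characteristic polynomial of Frobenius on the stalk of `j_! L`. -/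
theorem charRev_frobK_extZero :
    FinFr.charRev (H925.Defs.frobK K (P.fromSpecResidueField (j x) ≫ b)
        (EtLam.pullback (P.fromSpecResidueField (j x)) (FinFr.extZeroLam j L)) 0) =
      FinFr.charRev (H925.Defs.frobK K (X.fromSpecResidueField x ≫ a)
        (EtLam.pullback (X.fromSpecResidueField x) L) 0) := by
  rw [charRev_frobK_eq, charRev_frobK_eq]
  have hw : resMap j x ≫ P.fromSpecResidueField (j x) ≫ b = X.fromSpecResidueField x ≫ a := by
    rw [← Category.assoc, resMap_comp, Category.assoc, w]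
  rw [← charRev_galHM_iso (X.fromSpecResidueField x ≫ a) (P.fromSpecResidueField (j x) ≫ b) (resMap j x) hw]
  obtain ⟨e, he⟩ := (lamIso_pull_extZero j L).pullback (X.fromSpecResidueField x)
  rw [← charRev_galHM_congr (X.fromSpecResidueField x ≫ a) (FinFr.arith k K).symm e.hom he 0]
  rw [← charRev_galHM_congr (X.fromSpecResidueField x ≫ a) (FinFr.arith k K).symm
    (thL (resMap j x) (P.fromSpecResidueField (j x)) (resMap j x ≫ P.fromSpecResidueField (j x)) rfl
      (FinFr.extZeroLam j L)) (equi_thL _ _ _ _ _) 0]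
  exact charRev_galHM_congr (X.fromSpecResidueField x ≫ a) (FinFr.arith k K).symm
    (thL (X.fromSpecResidueField x) j (resMap j x ≫ P.fromSpecResidueField (j x)) (resMap_comp j x).symm
      (FinFr.extZeroLam j L)) (equi_thL _ _ _ _ _) 0

omit [Fintype k] [Fact FinFr.PullExact.{u}] in
include w in
theorem resHom_open :
    H911.PtCount.resHom k b (j x) ≫ j.residueFieldMap x = H911.PtCount.resHom k a x := by
  apply Spec.map_injective
  rw [Spec.map_comp, H911.PtCount.specMap_resHom, H911.PtCount.specMap_resHom, ← w]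
  exact (Category.assoc _ _ _).symm.trans ((congrArg (· ≫ b) (resMap_comp j x)).trans (Category.assoc _ _ _))

omit [Fintype k] [Fact FinFr.PullExact.{u}] in
include w in
/-- The degree of a point of an open subscheme. -/
theorem ptDeg_open : FinFr.ptDeg b (j x) = FinFr.ptDeg a x := by
  unfold FinFr.ptDeg
  letI := H911.PtCount.resAlg k a x
  letI := H911.PtCount.resAlg k b (j x)
  let e : P.residueField (j x) ≃+* X.residueField x := (asIso (j.residueFieldMap x)).commRingCatIsoToRingEquiv
  have he : ∀ (c : k) (y : (P.residueField (j x) : Type u)), e (c • y) = c • e y := by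
    intro c y
    change e (FinFr.resAlgHom b (j x) c * y) = FinFr.resAlgHom a x c * e y
    rw [map_mul]
    congr 1
    exact congrArg (fun f => f.hom c) (resHom_open a j b w x)
  exact LinearEquiv.finrank_eq (R := k)
    ({ e with map_smul' := he } : (P.residueField (j x) : Type u) ≃ₗ[k] (X.residueField x : Type u))

include w in
/-- The local factor of `j_! L` at a point of the open subscheme. -/
theorem locFactor_extZero [IsAlgClosed K] [Finite (X.residueField x : Type u)] (hL : FinFib L)
    (hL' : FinFib (FinFr.extZeroLam j L)) :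
    FinFr.locFactor b (j x) (FinFr.extZeroLam j L) = FinFr.locFactor a x L := by
  have : Finite (P.residueField (j x) : Type u) :=
    Finite.of_injective (j.residueFieldMap x).hom (RingHom.injective _)
  rw [← H927.CycInv.charRev_frobK K b (j x) _ hL', ← H927.CycInv.charRev_frobK K a x _ hL]
  exact charRev_frobK_extZero K a j b w L x

end frob

end Groth.Agent.Sga4h.H915.FacOpen
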