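import Groth.Agent.Sga4h.H915.FacOpen
import Groth.Agent.Sga4h.H616.RatDeg
import Groth.Agent.Sga4h.H925.LFOf

/-!
# The L-function identity from the vanishing of the defect of `j_! L`

`coeff_of_defect`: the conclusion of `S4258` from `defect K (detInvN Λ N) b N (extZeroLam j L) = 0`.
-/

set_option autoImplicit false
universe u
open CategoryTheory CategoryTheory.Limits AlgebraicGeometry Opposite Polynomial
open scoped BigOperators

namespace Groth.Agent.Sga4h.H915.LFOpen

open Groth.Agent Groth.Agent.Sga4h.H912.Twist Groth.Agent.Sga4h.H927.HMod Groth.Agent.Sga4h.H927.FinStalk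
  Groth.Agent.Sga4h.H925.Defs Groth.Agent.Sga4h.H925.DetInv FacOpen

section zero

variable {Λ : Type}

theorem subsingleton_HM_of_isZero [CommRing Λ] {X : Scheme.{u}} (L : EtLam.Sheaf Λ X) (h : IsZero L.carrier)
    (n : ℕ) : Subsingleton (HM L n) := by
  have h1 : ∀ v : EtCoh.H X L.carrier n, v = 0 := fun v => by
    have h2 := Abelian.Ext.comp_mk₀_id v
    rw [h.eq_of_src (𝟙 _) 0, Abelian.Ext.mk₀_zero, Abelian.Ext.comp_zero] at h2
    exact h2.symm
  exact ⟨fun v w => (h1 v).trans (h1 w).symm⟩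

theorem charRev_of_subsingleton [CommRing Λ] {V : Type*} [AddCommGroup V] [Module Λ V] [Subsingleton V]
    (φ : V →ₗ[Λ] V) : FinFr.charRev φ = 1 := by
  have : Subsingleton (TensorProduct Λ Λ[X] V) := inferInstance
  rw [FinFr.charRev]
  have h0 : LinearMap.id - (X : Λ[X]) • φ.baseChange Λ[X] =
      (LinearMap.id : TensorProduct Λ Λ[X] V →ₗ[Λ[X]] TensorProduct Λ Λ[X] V) :=
    LinearMap.ext fun x => Subsingleton.elim _ _
  rw [h0, LinearMap.det_id]

/-- The local factor of a sheaf vanishing at the point. -/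
theorem locFactor_of_isZero [CommRing Λ] {k : Type u} [Field k] [Fact FinFr.PullExact.{u}] {P : Scheme.{u}}
    (b : P ⟶ Spec (CommRingCat.of k)) (y : P) (M : EtLam.Sheaf Λ P)
    (h : IsZero (EtLam.pullback (P.fromSpecResidueField y) M).carrier) : FinFr.locFactor b y M = 1 := by
  rw [FinFr.locFactor]
  split_ifs with hf
  · let _ : Fintype (P.residueField y : Type u) := Fintype.ofFinite _
    have h1 : Subsingleton (HM (EtLam.pullback (FinFr.extπ (AlgebraicClosure (P.residueField y : Type u))
        (𝟙 (Spec (CommRingCat.of (P.residueField y : Type u))))) (EtLam.pullback (P.fromSpecResidueField y) M)) 0) :=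
      subsingleton_HM_of_isZero _ ((EtCoh.pull _).map_isZero h) 0
    have h2 : FinFr.charRev (FinFr.locFrob (k := (P.residueField y : Type u))
        (K := AlgebraicClosure (P.residueField y : Type u)) (P.fromSpecResidueField y) M) = 1 :=
      (H927.CycFactor.charRev_frob_eq (K := AlgebraicClosure (P.residueField y : Type u))
        (𝟙 (Spec (CommRingCat.of (P.residueField y : Type u))))
        (EtLam.pullback (P.fromSpecResidueField y) M) 0).trans (charRev_of_subsingleton _)
    exact (congrArg (expand Λ (FinFr.ptDeg b y)) h2).trans (map_one _)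
  · rfl

end zero

section open_

variable {Λ : Type} [CommRing Λ] {X P : Scheme.{u}} (j : X ⟶ P) [IsOpenImmersion j]

theorem isZero_pull_field {F : Type u} [Field F] (ξ : Spec (CommRingCat.of F) ⟶ P)
    (h : ¬ Set.range ξ ⊆ Set.range j) (L : EtLam.Sheaf Λ X) :
    IsZero (EtLam.pullback ξ (FinFr.extZeroLam j L)).carrier := by
  refine Sga4B.ShriekTools.isZero_pull_extZero j ξ ?_ L.carrier
  rw [Set.disjoint_left]
  rintro _ ⟨s, rfl⟩ hs
  apply h
  rintro _ ⟨t, rfl⟩
  have : Subsingleton (Spec (CommRingCat.of F)) := inferInstanceAs (Subsingleton (PrimeSpectrum F))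
  rwa [Subsingleton.elim t s]

/-- `j_!` preserves finiteness of the fibres. -/
theorem finFib_extZero (L : EtLam.Sheaf Λ X) (hL : FinFib L) : FinFib (FinFr.extZeroLam j L) := by
  intro Ω _ _ ξ
  by_cases h : Set.range ξ ⊆ Set.range j
  · let ξ' : Spec (CommRingCat.of Ω) ⟶ X := IsOpenImmersion.lift j ξ h
    have w : ξ' ≫ j = ξ := IsOpenImmersion.lift_fac j ξ h
    obtain ⟨e, he⟩ := (lamIso_pull_extZero j L).pullback ξ'
    have h1 := hL Ω ξ'
    have h2 : Module.Finite Λ (HM (EtLam.pullback ξ' (EtLam.pullback j (FinFr.extZeroLam j L))) 0) :=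
      Module.Finite.equiv (LinearEquiv.ofBijective (mapHM e.hom he 0) (bijective_mapHM _ _ 0))
    have h3 := LinearEquiv.ofBijective (mapHM (thL ξ' j ξ w (FinFr.extZeroLam j L)) (equi_thL ξ' j ξ w _) 0)
      (bijective_mapHM _ _ 0)
    exact Module.Finite.equiv h3
  · have := subsingleton_HM_of_isZero (EtLam.pullback ξ (FinFr.extZeroLam j L)) (isZero_pull_field j ξ h L) 0
    exact Module.Finite.of_finite

theorem locFactor_extZero_of_not_mem {k : Type u} [Field k] [Fact FinFr.PullExact.{u}]
    (b : P ⟶ Spec (CommRingCat.of k)) (L : EtLam.Sheaf Λ X) (y : P) (hy : y ∉ Set.range j) :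
    FinFr.locFactor b y (FinFr.extZeroLam j L) = 1 := by
  refine locFactor_of_isZero b y _ (isZero_pull_field j (F := (P.residueField y : Type u))
    (P.fromSpecResidueField y) (fun h => hy ?_) L)
  exact h ⟨IsLocalRing.closedPoint _, Scheme.fromSpecResidueField_apply _ _⟩

end open_

section prod

variable {Λ : Type} [Field Λ] {k : Type u} [Field k] [Fintype k] (K : Type u) [Field K] [Algebra k K]
  [Algebra.IsAlgebraic k K] [IsAlgClosed K] [Fact FinFr.PullExact.{u}]
  {X P : Scheme.{u}} (a : X ⟶ Spec (CommRingCat.of k)) (j : X ⟶ P) [IsOpenImmersion j]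
  (b : P ⟶ Spec (CommRingCat.of k)) [LocallyOfFiniteType b] (w : j ≫ b = a)

omit [Fact FinFr.PullExact.{u}] in
include w in
theorem isClosed_open (x : X) (hx : IsClosed ({x} : Set X)) : IsClosed ({j x} : Set P) := by
  have : LocallyOfFiniteType a := by rw [← w]; infer_instance
  exact H911.PtCount.isClosed_of_deg_pos k b (j x)
    ((ptDeg_open a j b w x).symm ▸ H616.RatDeg.ptDeg_pos a x hx)

/-- The closed points of degree `≤ N` of an open subscheme. -/
noncomputable def ptMap (N : ℕ) (x : {x : FinFr.ClosedPt X // FinFr.ptDeg a x.1 ≤ N}) :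
    {y : FinFr.ClosedPt P // FinFr.ptDeg b y.1 ≤ N} :=
  ⟨⟨j x.1.1, isClosed_open a j b w x.1.1 x.1.2⟩, (ptDeg_open a j b w x.1.1).le.trans x.2⟩

omit [Fact FinFr.PullExact.{u}] in
theorem ptMap_injective (N : ℕ) : Function.Injective (ptMap a j b w N) := fun x y h =>
  Subtype.ext (Subtype.ext (j.isOpenEmbedding.injective (congrArg (fun z => z.1.1) h)))

omit [Fact FinFr.PullExact.{u}] in
theorem not_mem_of_not_range (N : ℕ) (y : {y : FinFr.ClosedPt P // FinFr.ptDeg b y.1 ≤ N})
    (hy : y ∉ Set.range (ptMap a j b w N)) : y.1.1 ∉ Set.range j := by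
  rintro ⟨x, hx⟩
  apply hy
  have h1 : IsClosed ({x} : Set X) := by
    have h2 : ({x} : Set X) = j ⁻¹' {y.1.1} := by
      rw [← hx, ← Set.image_singleton, Set.preimage_image_eq _ j.isOpenEmbedding.injective]
    rw [h2]
    exact y.1.2.preimage j.continuous
  exact ⟨⟨⟨x, h1⟩, by rw [← ptDeg_open a j b w x, hx]; exact y.2⟩, Subtype.ext (Subtype.ext hx)⟩

include K w in
/-- The products of the local factors over the closed points of degree `≤ N`. -/
theorem finprod_locFactor (L : EtLam.Sheaf Λ X) (hL : FinFib L) (N : ℕ) :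
    ∏ᶠ y : {y : FinFr.ClosedPt P // FinFr.ptDeg b y.1 ≤ N}, FinFr.locFactor b y.1.1 (FinFr.extZeroLam j L) =
      ∏ᶠ x : {x : FinFr.ClosedPt X // FinFr.ptDeg a x.1 ≤ N}, FinFr.locFactor a x.1.1 L := by
  have hfa : LocallyOfFiniteType a := by rw [← w]; infer_instance
  have h1 : Set.mulIndicator (Set.range (ptMap a j b w N))
      (fun y : {y : FinFr.ClosedPt P // FinFr.ptDeg b y.1 ≤ N} =>
        FinFr.locFactor b y.1.1 (FinFr.extZeroLam j L)) =
      fun y : {y : FinFr.ClosedPt P // FinFr.ptDeg b y.1 ≤ N} =>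
        FinFr.locFactor b y.1.1 (FinFr.extZeroLam j L) := by
    rw [Set.mulIndicator_eq_self]
    intro y hy
    by_contra h
    exact hy (locFactor_extZero_of_not_mem j b L y.1.1 (not_mem_of_not_range a j b w N y h))
  rw [← h1, ← finprod_mem_def, finprod_mem_range (ptMap_injective a j b w N)]
  refine finprod_congr fun x => ?_
  have : Finite (X.residueField x.1.1 : Type u) := by
    let _ := H911.PtCount.resAlg k a x.1.1
    have := H616.RatDeg.finite_resAlg a x.1.1 x.1.2
    exact Module.finite_of_finite k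
  exact locFactor_extZero K a j b w L x.1.1 hL (finFib_extZero j L hL)

include w in
/-- The conclusion of `S4258` from the vanishing of the defect of `j_! L`. -/
theorem coeff_of_defect (L : EtLam.Sheaf Λ X) (hL : FinFib L) (N m₀ : ℕ)
    (hm₀ : ∀ i, m₀ ≤ i → Subsingleton (HK K b (FinFr.extZeroLam j L) i))
    (hfin : Finite {x : FinFr.ClosedPt P // FinFr.ptDeg b x.1 ≤ N})
    (h : defect K (detInvN Λ N) b N (FinFr.extZeroLam j L) = 0) (m : ℕ) (hm : m ≤ N) :
    Polynomial.coeff ((∏ᶠ i : {i : ℕ // Odd i}, FinFr.charRev (FinFr.frobC (K := K) j b L i.1)) *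
        ∏ᶠ x : {x : FinFr.ClosedPt X // FinFr.ptDeg a x.1 ≤ N}, FinFr.locFactor a x.1.1 L) m =
      Polynomial.coeff (∏ᶠ i : {i : ℕ // Even i}, FinFr.charRev (FinFr.frobC (K := K) j b L i.1)) m := by
  have hL' := finFib_extZero j L hL
  rw [← finprod_locFactor K a j b w L hL N]
  refine H925.LFOf.LF_of_defect K b (FinFr.extZeroLam j L) N m₀ hm₀ hfin (fun y hy => ?_) h m hm
  have : Finite (P.residueField y : Type u) := by
    let _ := H911.PtCount.resAlg k b y
    have := H616.RatDeg.finite_resAlg b y hy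
    exact Module.finite_of_finite k
  exact H927.CycInv.charRev_frobK K b y (FinFr.extZeroLam j L) hL'

end prod

end Groth.Agent.Sga4h.H915.LFOpen
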