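import Groth.Agent.Sga4h.H915.CurveCase
import Mathlib.Algebra.Field.ULift

/-!
# `LefFor k Λ` for a field `Λ`, from the statement of S4230
-/

set_option autoImplicit false
universe u
open CategoryTheory CategoryTheory.Limits AlgebraicGeometry Opposite
open scoped Groth.Agent.Etcore.EtInst Groth.Agent.Sga4B.ModEtInst

namespace Groth.Agent.Sga4h.H915.LefOf

open Groth.Agent.Sga4h.H915.CurveCase

/-- The statement of S4230. -/
def Stmt : Prop :=
  ∀ (k : Type u) [Field k] [IsAlgClosed k] {X : Scheme.{u}} (f : X ⟶ Spec (CommRingCat.of k))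
    [IsProper f] [SmoothOfRelativeDimension 1 f]
    (F : X ⟶ X) (_ : F ≫ f = f)
    (_ : Finite {ξ : Spec (CommRingCat.of k) ⟶ X // ξ ≫ f = 𝟙 _ ∧ ξ ≫ F = ξ})
    (_ : ∀ ξ : {ξ : Spec (CommRingCat.of k) ⟶ X // ξ ≫ f = 𝟙 _ ∧ ξ ≫ F = ξ}, FixPt.IsTransversalAt F (ξ.1 (IsLocalRing.closedPoint k)))
    (Λ : Type (u + 1)) [Field Λ] (ℓ : ℕ) [Fact ℓ.Prime] [CharP Λ ℓ] (_ : (ℓ : k) ≠ 0)
    [PreservesFiniteLimits (EtModW.pull Λ F)],
    FixPt.lefNum (FixPt.unit Λ X) (FixPt.endo F (FixPt.pullUnit (Λ := Λ) F).hom) =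
      (Nat.card {ξ : Spec (CommRingCat.of k) ⟶ X // ξ ≫ f = 𝟙 _ ∧ ξ ≫ F = ξ} : Λ)

theorem charP_ulift (Λ : Type) [Field Λ] (ℓ : ℕ) [h : CharP Λ ℓ] : CharP (ULift.{u + 1} Λ) ℓ :=
  ⟨fun x => by
    rw [← h.cast_eq_zero_iff]
    constructor
    · intro hx
      have := congrArg ULift.down hx
      rwa [ULift.down_natCast] at this
    · intro hx
      apply ULift.down_injective
      rwa [ULift.down_natCast]⟩

/-- S4230 gives the Lefschetz formula with coefficients in a field `Λ : Type`. -/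
theorem lefFor (H : Stmt.{u}) (k : Type u) [Field k] [IsAlgClosed k] (Λ : Type) [Field Λ]
    (hΛ : (ringChar Λ : k) ≠ 0) : LefFor k Λ := by
  intro X f _ _ F hF hfin htr _
  have h1 : CharP Λ (ringChar Λ) := inferInstance
  have h0 : ringChar Λ ≠ 0 := by
    intro h
    rw [h, Nat.cast_zero] at hΛ
    exact hΛ rfl
  have h2 : Fact (ringChar Λ).Prime := ⟨(CharP.char_is_prime_or_zero Λ (ringChar Λ)).resolve_right h0⟩
  have h3 : CharP (ULift.{u + 1} Λ) (ringChar Λ) := charP_ulift Λ (ringChar Λ)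
  exact H k f F hF hfin htr (ULift.{u + 1} Λ) (ringChar Λ) hΛ

end Groth.Agent.Sga4h.H915.LefOf
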